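import Cfsg.Agent.ChevalleyStructure.JacTab
import Mathlib

/-!
# A kernel engine for `E₈` over `𝔽₃` (helper738)

A state is a pair of bit planes holding a `248 × 248` matrix over `𝔽₃` (entry `1`: bit in the first plane, entry `2`: bit
in the second plane, position `248 i + j`); row `i` is a linear form in a vector `v`.
-/

set_option autoImplicit false

namespace Cfsg.Agent.H738.E83

open Cfsg.Agent.ChevalleyStructure.JacTab
open Finset

/-- force the evaluation of a natural number -/
def frc {α : Type} (x : ℕ) (k : ℕ → α) : α :=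
  Nat.rec (motive := fun _ => α) (k 0) (fun n _ => k (Nat.succ n)) x

theorem frc_eq {α : Type} (x : ℕ) (k : ℕ → α) : frc x k = k x := by cases x <;> rfl

/-- two bit planes -/
abbrev St : Type := ℕ × ℕ

/-- the value of a bit -/
def bt (b : Bool) : ZMod 3 := if b = true then 1 else 0

/-- the value at a position -/
def vl (S : St) (b : ℕ) : ZMod 3 := bt (S.1.testBit b) - bt (S.2.testBit b)

/-- the planes are disjoint -/
def Pr (S : St) : Prop := ∀ b, (S.1.testBit b && S.2.testBit b) = false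

/-- addition -/
def ad3 (S T : St) : St :=
  match S, T with
  | (a, b), (c, d) =>
    frc (Nat.xor (Nat.lor a d) (Nat.lor b c)) fun t => frc (Nat.xor (Nat.lor b d) t) fun p =>
      frc (Nat.xor (Nat.lor a c) t) fun n => (p, n)

theorem bool3 : ∀ a b c d : Bool, (a && b) = false → (c && d) = false →
    ((((b || d) ^^ ((a || d) ^^ (b || c))) && ((a || c) ^^ ((a || d) ^^ (b || c)))) = false ∧
      bt ((b || d) ^^ ((a || d) ^^ (b || c))) - bt ((a || c) ^^ ((a || d) ^^ (b || c))) =
        (bt a - bt b) + (bt c - bt d)) := by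
  decide

theorem ad3_eq (a b c d : ℕ) : ad3 (a, b) (c, d) =
    ((b ||| d) ^^^ ((a ||| d) ^^^ (b ||| c)), (a ||| c) ^^^ ((a ||| d) ^^^ (b ||| c))) := by
  unfold ad3
  simp only [frc_eq]
  rfl

theorem Pr.ad3 {S T : St} (hS : Pr S) (hT : Pr T) : Pr (ad3 S T) := by
  obtain ⟨a, b⟩ := S
  obtain ⟨c, d⟩ := T
  intro x
  rw [ad3_eq]
  simp only [Nat.testBit_xor, Nat.testBit_or]
  exact (bool3 _ _ _ _ (hS x) (hT x)).1

theorem vl_ad3 {S T : St} (hS : Pr S) (hT : Pr T) (x : ℕ) : vl (ad3 S T) x = vl S x + vl T x := by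
  obtain ⟨a, b⟩ := S
  obtain ⟨c, d⟩ := T
  rw [ad3_eq]
  unfold vl
  simp only [Nat.testBit_xor, Nat.testBit_or]
  exact (bool3 _ _ _ _ (hS x) (hT x)).2

/-- negation -/
def ng (S : St) : St := match S with | (a, b) => (b, a)

theorem Pr.ng {S : St} (hS : Pr S) : Pr (ng S) := by
  obtain ⟨a, b⟩ := S
  intro x
  have h := hS x
  show (b.testBit x && a.testBit x) = false
  rw [Bool.and_comm]; exact h

theorem vl_ng (S : St) (x : ℕ) : vl (ng S) x = -vl S x := by
  obtain ⟨a, b⟩ := S
  show bt (b.testBit x) - bt (a.testBit x) = -(bt (a.testBit x) - bt (b.testBit x))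
  rw [neg_sub]

/-- zero -/
def st0 : St := (0, 0)

theorem pr_st0 : Pr st0 := fun x => by
  show ((0 : ℕ).testBit x && (0 : ℕ).testBit x) = false
  rw [Nat.zero_testBit]; rfl

theorem vl_st0 (x : ℕ) : vl st0 x = 0 := by
  show bt ((0 : ℕ).testBit x) - bt ((0 : ℕ).testBit x) = 0
  rw [sub_self]

/-- the mask of one row -/
def MK : ℕ := 452312848583266388373324160190187140051835877600158453279131187530910662655

theorem MK_eq : MK = 2 ^ 248 - 1 := by unfold MK; norm_num

/-- the row number `z` -/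
def gt (S : St) (z : ℕ) : St :=
  match S with
  | (p, n) => frc (Nat.land (Nat.shiftRight p (Nat.mul 248 z)) MK) fun a =>
      frc (Nat.land (Nat.shiftRight n (Nat.mul 248 z)) MK) fun b => (a, b)

theorem gt_eq (p n z : ℕ) : gt (p, n) z = ((p >>> (248 * z)) &&& (2 ^ 248 - 1), (n >>> (248 * z)) &&& (2 ^ 248 - 1)) := by
  unfold gt
  simp only [frc_eq]
  rw [MK_eq]; rfl

theorem tb_mask (p z j : ℕ) : ((p >>> (248 * z)) &&& (2 ^ 248 - 1)).testBit j =
    (p.testBit (248 * z + j) && decide (j < 248)) := by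
  rw [Nat.testBit_and, Nat.testBit_shiftRight, Nat.testBit_two_pow_sub_one]

theorem vl_gt (S : St) (z j : ℕ) : vl (gt S z) j = if j < 248 then vl S (248 * z + j) else 0 := by
  obtain ⟨p, n⟩ := S
  rw [gt_eq]
  unfold vl
  simp only [tb_mask]
  by_cases h : j < 248
  · rw [if_pos h]; simp only [h, decide_true, Bool.and_true]
  · rw [if_neg h]; simp only [h, decide_false, Bool.and_false, sub_self]

theorem Pr.gt {S : St} (hS : Pr S) (z : ℕ) : Pr (gt S z) := by
  obtain ⟨p, n⟩ := S
  intro x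
  rw [gt_eq]
  simp only [tb_mask]
  have h := hS (248 * z + x)
  simp only at h
  cases h1 : p.testBit (248 * z + x) <;> cases h2 : n.testBit (248 * z + x) <;> simp_all

/-- shift a row to position `k` -/
def pt (f : St) (k : ℕ) : St :=
  match f with
  | (a, b) => frc (Nat.shiftLeft a (Nat.mul 248 k)) fun a => frc (Nat.shiftLeft b (Nat.mul 248 k)) fun b => (a, b)

theorem pt_eq (a b k : ℕ) : pt (a, b) k = (a <<< (248 * k), b <<< (248 * k)) := by
  unfold pt
  simp only [frc_eq]
  rfl

theorem vl_pt (f : St) (k x : ℕ) : vl (pt f k) x = if 248 * k ≤ x then vl f (x - 248 * k) else 0 := by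
  obtain ⟨a, b⟩ := f
  rw [pt_eq]
  unfold vl
  simp only [Nat.testBit_shiftLeft]
  by_cases h : 248 * k ≤ x
  · rw [if_pos h]; simp only [h, decide_true, Bool.true_and]
  · rw [if_neg h]; simp only [h, decide_false, Bool.false_and, sub_self]

theorem Pr.pt {f : St} (hf : Pr f) (k : ℕ) : Pr (pt f k) := by
  obtain ⟨a, b⟩ := f
  intro x
  rw [pt_eq]
  simp only [Nat.testBit_shiftLeft]
  have h := hf (x - 248 * k)
  simp only at h
  cases h1 : a.testBit (x - 248 * k) <;> cases h2 : b.testBit (x - 248 * k) <;> simp_all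

/-- the residue mod 3 -/
def md (m : ℤ) : ℕ := Int.toNat (Int.emod m 3)

/-- multiplication by an integer -/
def sg (m : ℤ) (f : St) : St :=
  Nat.rec (motive := fun _ => St) st0 (fun k _ => Nat.rec (motive := fun _ => St) f (fun _ _ => ng f) k) (md m)

theorem sg_spec (m : ℤ) (f : St) (hf : Pr f) : Pr (sg m f) ∧ ∀ x, vl (sg m f) x = (m : ZMod 3) * vl f x := by
  have h0 : (m : ZMod 3) = ((m % 3 : ℤ) : ZMod 3) := by
    have h := ZMod.intCast_mod m 3
    exact h.symm
  have h1 := Int.emod_nonneg m (show (3 : ℤ) ≠ 0 by norm_num)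
  have h2 := Int.emod_lt_of_pos m (show (0 : ℤ) < 3 by norm_num)
  have h3 : m % 3 = 0 ∨ m % 3 = 1 ∨ m % 3 = 2 := by omega
  have hm : md m = (m % 3).toNat := rfl
  unfold sg
  rcases h3 with h | h | h
  · rw [hm, h]
    refine ⟨pr_st0, fun x => ?_⟩
    show vl st0 x = _
    rw [vl_st0, h0, h]; simp
  · rw [hm, h]
    refine ⟨hf, fun x => ?_⟩
    show vl f x = _
    rw [h0, h]; simp
  · rw [hm, h]
    refine ⟨hf.ng, fun x => ?_⟩
    show vl (ng f) x = _
    rw [vl_ng, h0, h]
    have : ((2 : ℤ) : ZMod 3) = -1 := by decide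
    rw [this]; ring

/-- the value of row `i` at the vector `v` -/
def cv (S : St) (v : ℕ → ZMod 3) (i : ℕ) : ZMod 3 := ∑ j ∈ range 248, vl S (248 * i + j) * v j

/-- the value of a form -/
def fv (f : St) (v : ℕ → ZMod 3) : ZMod 3 := ∑ j ∈ range 248, vl f j * v j

theorem fv_gt (S : St) (v : ℕ → ZMod 3) (z : ℕ) : fv (gt S z) v = cv S v z := by
  unfold fv cv
  refine sum_congr rfl fun j hj => ?_
  rw [vl_gt, if_pos (mem_range.1 hj)]

theorem fv_ad3 {f g : St} (hf : Pr f) (hg : Pr g) (v : ℕ → ZMod 3) : fv (ad3 f g) v = fv f v + fv g v := by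
  unfold fv
  rw [← sum_add_distrib]
  refine sum_congr rfl fun j _ => ?_
  rw [vl_ad3 hf hg]; ring

theorem fv_ng (f : St) (v : ℕ → ZMod 3) : fv (ng f) v = -fv f v := by
  unfold fv
  rw [← sum_neg_distrib]
  refine sum_congr rfl fun j _ => ?_
  rw [vl_ng]; ring

theorem cv_ad3 {S T : St} (hS : Pr S) (hT : Pr T) (v : ℕ → ZMod 3) (i : ℕ) :
    cv (ad3 S T) v i = cv S v i + cv T v i := by
  unfold cv
  rw [← sum_add_distrib]
  refine sum_congr rfl fun j _ => ?_
  rw [vl_ad3 hS hT]; ring

theorem cv_ng (S : St) (v : ℕ → ZMod 3) (i : ℕ) : cv (ng S) v i = -cv S v i := by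
  unfold cv
  rw [← sum_neg_distrib]
  refine sum_congr rfl fun j _ => ?_
  rw [vl_ng]; ring

theorem cv_st0 (v : ℕ → ZMod 3) (i : ℕ) : cv st0 v i = 0 := by
  unfold cv
  refine sum_eq_zero fun j _ => ?_
  rw [vl_st0, zero_mul]

theorem cv_pt {f : St} (hf : ∀ j, 248 ≤ j → vl f j = 0) (k : ℕ) (v : ℕ → ZMod 3) (i : ℕ) :
    cv (pt f k) v i = if i = k then fv f v else 0 := by
  unfold cv fv
  by_cases h : i = k
  · subst h
    rw [if_pos rfl]
    refine sum_congr rfl fun j _ => ?_
    rw [vl_pt, if_pos (Nat.le_add_right _ _), Nat.add_sub_cancel_left]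
  · rw [if_neg h]
    refine sum_eq_zero fun j hj => ?_
    have hj' := mem_range.1 hj
    rw [vl_pt]
    by_cases h1 : 248 * k ≤ 248 * i + j
    · rw [if_pos h1, hf _ (by omega), zero_mul]
    · rw [if_neg h1, zero_mul]

/-- one column of a bracket -/
def stp (S : St) (z : ℕ) (l : List (ℕ × ℤ)) (acc : St) : St :=
  List.rec (motive := fun _ => St) acc (fun e _ ih => ad3 (pt (sg e.2 (gt S z)) e.1) ih) l

theorem stp_nil (S : St) (z : ℕ) (acc : St) : stp S z [] acc = acc := rfl

theorem stp_cons (S : St) (z : ℕ) (e : ℕ × ℤ) (l : List (ℕ × ℤ)) (acc : St) :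
    stp S z (e :: l) acc = ad3 (pt (sg e.2 (gt S z)) e.1) (stp S z l acc) := rfl

theorem pr_stp {S acc : St} (hS : Pr S) (ha : Pr acc) (z : ℕ) (l : List (ℕ × ℤ)) : Pr (stp S z l acc) := by
  induction l with
  | nil => exact ha
  | cons e l ih => rw [stp_cons]; exact Pr.ad3 ((sg_spec e.2 _ (hS.gt z)).1.pt _) ih

/-- coefficient of `i` -/
def ce (l : List (ℕ × ℤ)) (i : ℕ) : ℤ := (l.map fun e => if i = e.1 then e.2 else 0).sum

theorem ce_cons (e : ℕ × ℤ) (l : List (ℕ × ℤ)) (i : ℕ) : ce (e :: l) i = (if i = e.1 then e.2 else 0) + ce l i := by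
  unfold ce; rw [List.map_cons, List.sum_cons]

theorem cv_stp {S acc : St} (hS : Pr S) (ha : Pr acc) (z : ℕ) (l : List (ℕ × ℤ)) (v : ℕ → ZMod 3) (i : ℕ) :
    cv (stp S z l acc) v i = (ce l i : ZMod 3) * cv S v z + cv acc v i := by
  induction l with
  | nil => rw [stp_nil]; simp [ce]
  | cons e l ih =>
    have h1 := sg_spec e.2 _ (hS.gt z)
    rw [stp_cons, cv_ad3 (h1.1.pt _) (pr_stp hS ha z l), ih, cv_pt, ce_cons]
    · have h2 : fv (sg e.2 (gt S z)) v = (e.2 : ZMod 3) * cv S v z := by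
        rw [← fv_gt]
        unfold fv
        rw [mul_sum]
        refine sum_congr rfl fun j _ => ?_
        rw [h1.2]; ring
      rw [h2]
      push_cast
      by_cases h : i = e.1
      · rw [if_pos h, if_pos h]; ring
      · rw [if_neg h, if_neg h]; ring
    · intro j hj
      rw [h1.2, vl_gt, if_neg (by omega), mul_zero]

/-- the bracket with a basis element, columns below `n` -/
def brkN (R : Row) (S : St) (n : ℕ) : St :=
  Nat.rec (motive := fun _ => St) st0 (fun z ih => stp S z (rbr R z) ih) n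

theorem brkN_succ (R : Row) (S : St) (n : ℕ) : brkN R S (n + 1) = stp S n (rbr R n) (brkN R S n) := rfl

theorem pr_brkN (R : Row) {S : St} (hS : Pr S) (n : ℕ) : Pr (brkN R S n) := by
  induction n with
  | zero => exact pr_st0
  | succ n ih => rw [brkN_succ]; exact pr_stp hS ih n _

theorem cv_brkN (R : Row) {S : St} (hS : Pr S) (v : ℕ → ZMod 3) (i n : ℕ) :
    cv (brkN R S n) v i = ∑ z ∈ range n, (ce (rbr R z) i : ZMod 3) * cv S v z := by
  induction n with
  | zero => rw [range_zero, sum_empty]; exact cv_st0 v i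
  | succ n ih => rw [brkN_succ, cv_stp hS (pr_brkN R hS n), ih, sum_range_succ, add_comm]

/-- the bracket with the basis element number `r` -/
def brk (rs : List Row) (r : ℕ) (S : St) : St :=
  match S with
  | (p, n) => match rowAt rs r with
    | ⟨a, h⟩ => brkN ⟨a, h⟩ (p, n) 248

theorem brk_eq (rs : List Row) (r : ℕ) (S : St) : brk rs r S = brkN (rowAt rs r) S 248 := by
  obtain ⟨p, n⟩ := S
  rfl

theorem Pr.brk {S : St} (hS : Pr S) (rs : List Row) (r : ℕ) : Pr (brk rs r S) := by
  rw [brk_eq]; exact pr_brkN _ hS _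

theorem cv_brk {S : St} (hS : Pr S) (rs : List Row) (r : ℕ) (v : ℕ → ZMod 3) (i : ℕ) :
    cv (brk rs r S) v i = ∑ z ∈ range 248, (ce (rbr (rowAt rs r) z) i : ZMod 3) * cv S v z := by
  rw [brk_eq]; exact cv_brkN _ hS v i 248

/-- the root element `x_r(1)` (`c = true`) or `x_r(-1)` -/
def xs (rs : List Row) (r : ℕ) (c : Bool) (S : St) : St :=
  match S with
  | (p, n) => match brk rs r (p, n) with
    | (p1, n1) => match brk rs r (p1, n1) with
      | (p2, n2) => ad3 (ad3 (p, n) (Bool.rec (motive := fun _ => St) (n1, p1) (p1, n1) c)) (n2, p2)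

theorem xs_eq (rs : List Row) (r : ℕ) (c : Bool) (S : St) : xs rs r c S =
    ad3 (ad3 S (if c = true then brk rs r S else ng (brk rs r S))) (ng (brk rs r (brk rs r S))) := by
  obtain ⟨p, n⟩ := S
  show (match brk rs r (p, n) with
      | (p1, n1) => match brk rs r (p1, n1) with
        | (p2, n2) => ad3 (ad3 (p, n) (Bool.rec (motive := fun _ => St) (n1, p1) (p1, n1) c)) (n2, p2)) = _
  generalize brk rs r (p, n) = B
  obtain ⟨p1, n1⟩ := B
  show (match brk rs r (p1, n1) with
      | (p2, n2) => ad3 (ad3 (p, n) (Bool.rec (motive := fun _ => St) (n1, p1) (p1, n1) c)) (n2, p2)) = _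
  generalize brk rs r (p1, n1) = B
  obtain ⟨p2, n2⟩ := B
  cases c <;> rfl

/-- a word applied to a state (last letter first) -/
def wd (rs : List Row) (w : List (ℕ × Bool)) (S : St) : St :=
  List.rec (motive := fun _ => St) S (fun l _ ih => xs rs l.1 l.2 ih) w

theorem wd_nil (rs : List Row) (S : St) : wd rs [] S = S := rfl

theorem wd_cons (rs : List Row) (l : ℕ × Bool) (w : List (ℕ × Bool)) (S : St) :
    wd rs (l :: w) S = xs rs l.1 l.2 (wd rs w S) := rfl

/-- the operator `∑ c [e_r, _]` -/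
def aw (rs : List Row) (w : List (ℕ × Bool)) (S : St) : St :=
  match S with
  | (p, n) => List.rec (motive := fun _ => St) st0
      (fun l _ ih => ad3 (Bool.rec (motive := fun _ => St) (ng (brk rs l.1 (p, n))) (brk rs l.1 (p, n)) l.2) ih) w

theorem aw_nil (rs : List Row) (S : St) : aw rs [] S = st0 := by obtain ⟨p, n⟩ := S; rfl

theorem aw_cons (rs : List Row) (l : ℕ × Bool) (w : List (ℕ × Bool)) (S : St) :
    aw rs (l :: w) S = ad3 (if l.2 = true then brk rs l.1 S else ng (brk rs l.1 S)) (aw rs w S) := by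
  obtain ⟨p, n⟩ := S
  obtain ⟨r, c⟩ := l
  cases c <;> rfl

/-- combination of the rows `0, ..., n - 1` of a state with coefficients the row `f` -/
def cb (f S : St) (n : ℕ) (acc : St) : St :=
  match f, S with
  | (a, b), (p, q) => Nat.rec (motive := fun _ => St) acc
      (fun z ih => Bool.rec (motive := fun _ => St)
        (Bool.rec (motive := fun _ => St) ih (ad3 (ng (gt (p, q) z)) ih) (Nat.testBit b z))
        (ad3 (gt (p, q) z) ih) (Nat.testBit a z)) n

theorem cb_zero (f S acc : St) : cb f S 0 acc = acc := by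
  obtain ⟨a, b⟩ := f
  obtain ⟨p, q⟩ := S
  rfl

theorem cb_succ (f S acc : St) (z : ℕ) : cb f S (z + 1) acc =
    if f.1.testBit z = true then ad3 (gt S z) (cb f S z acc) else
      if f.2.testBit z = true then ad3 (ng (gt S z)) (cb f S z acc) else cb f S z acc := by
  obtain ⟨a, b⟩ := f
  obtain ⟨p, q⟩ := S
  show Bool.rec (motive := fun _ => St)
        (Bool.rec (motive := fun _ => St) (cb (a, b) (p, q) z acc) (ad3 (ng (gt (p, q) z)) (cb (a, b) (p, q) z acc))
          (Nat.testBit b z))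
        (ad3 (gt (p, q) z) (cb (a, b) (p, q) z acc)) (Nat.testBit a z) = _
  cases h1 : Nat.testBit a z <;> cases h2 : Nat.testBit b z <;> simp_all

theorem pr_cb (f : St) {S acc : St} (hS : Pr S) (ha : Pr acc) (n : ℕ) : Pr (cb f S n acc) := by
  induction n with
  | zero => rw [cb_zero]; exact ha
  | succ n ih =>
    rw [cb_succ]
    split_ifs
    · exact (hS.gt n).ad3 ih
    · exact (hS.gt n).ng.ad3 ih
    · exact ih

/-- if all rows of `S` kill `v`, then so does every combination -/
theorem fv_cb (f : St) {S acc : St} (hS : Pr S) (ha : Pr acc) (v : ℕ → ZMod 3) (n : ℕ)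
    (h : ∀ i < n, cv S v i = 0) : fv (cb f S n acc) v = fv acc v := by
  induction n with
  | zero => rw [cb_zero]
  | succ n ih =>
    have ih' := ih fun i hi => h i (by omega)
    have hn := h n (by omega)
    rw [cb_succ]
    split_ifs
    · rw [fv_ad3 (hS.gt n) (pr_cb f hS ha n), fv_gt, hn, zero_add, ih']
    · rw [fv_ad3 (hS.gt n).ng (pr_cb f hS ha n), fv_ng, fv_gt, hn, neg_zero, zero_add, ih']
    · exact ih'

end Cfsg.Agent.H738.E83
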