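import Cfsg.Agent.H738.E83.Norm
import Cfsg.Agent.H455.E83.Fix
import Cfsg.Agent.H64.E83.End

/-!
# The lines `q_I`, `q_II`: the inputs of helper64's `END` (helper738, S5925 box L)
-/

set_option autoImplicit false
set_option maxRecDepth 100000

namespace Cfsg.Agent.H738.E83

open Matrix Cfsg Cfsg.Lie
open Cfsg.Agent.H64.E83 (L3 mx vec vec_nil vec_cons vec_append vec_smul eqv vec_eq Ph i4 i1 E ac)
open Cfsg.Agent.H788.E83 (SL5 Ax Ay At it)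

/-- the invariant property -/
def Cz (v : L3) : Prop := ∀ u, cu v u = 0

theorem Cz_ac (g : E) (v : L3) (h : Cz v) : Cz (ac g v) := by
  intro u
  have h1 : u = mx g *ᵥ (mx g⁻¹ *ᵥ u) := (mx_mul_inv g u).symm
  show cu (mx g *ᵥ v) u = 0
  rw [h1, ← mx_cu, h, Matrix.mulVec_zero]

theorem e0_eq : e0 = ![1, 0, 0, 0, 0] := rfl

theorem f0_eq : f0 = ![1, 0, 0, 0, 2] := rfl

theorem hqI : Cfsg.Agent.H64.E83.qI = vb wI := by
  rw [qI_eq, e0_eq]; rfl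

theorem hqII : Cfsg.Agent.H64.E83.qII = vb wII := by
  rw [qII_eq, f0_eq]; rfl

theorem Cz_I : Cz Cfsg.Agent.H64.E83.qI := by rw [hqI]; exact cube_I

theorem Cz_II : Cz Cfsg.Agent.H64.E83.qII := by rw [hqII]; exact cube_II

theorem lI_eq : Cfsg.Agent.H455.E83.qI = vb wI := vec_eq (by decide +kernel)

theorem lI'_eq : Cfsg.Agent.H455.E83.qI' = vb wI' := vec_eq (by decide +kernel)

theorem lII_eq : Cfsg.Agent.H455.E83.qII = vb wII := vec_eq (by decide +kernel)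

theorem lII'_eq : Cfsg.Agent.H455.E83.qII' = vb wII' := vec_eq (by decide +kernel)

theorem hFixI : FixI := by
  intro v hy ht hx
  obtain ⟨c, d, h⟩ := Cfsg.Agent.H455.E83.fixI v hy ht hx
  rw [lI_eq, lI'_eq] at h
  exact ⟨c, d, h⟩

theorem hFixII : FixII := by
  intro v hy ht hx
  obtain ⟨c, d, h⟩ := Cfsg.Agent.H455.E83.fixII v hy ht hx
  rw [lII_eq, lII'_eq] at h
  exact ⟨c, d, h⟩

/-- the fixed vectors of `A_I` with cube 0 -/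
theorem uI (v : L3) (hy : ac (Ph Ay) v = v) (ht : ac (Ph At) v = v) (hx : ac (Ph At) (ac (Ph Ax) v) = ac (Ph Ax) v)
    (hv : Cz v) : ∃ c : ZMod 3, v = c • Cfsg.Agent.H64.E83.qI := by
  obtain ⟨c, d, h⟩ := hFixI v hy ht hx
  have hd : d = 0 := by
    by_contra hd
    apply ncube_I (c := c) hd
    rw [← h]; exact hv _
  rw [hd, zero_smul, add_zero] at h
  exact ⟨c, by rw [hqI]; exact h⟩

/-- the fixed vectors of `A_II` with cube 0 -/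
theorem uII (v : L3) (hy : ac (Ph Ay) v = v) (ht : ac (Ph At) v = v)
    (hx : ac (Ph At) (ac (Ph Ax)⁻¹ v) = ac (Ph Ax)⁻¹ v) (hv : Cz v) :
    ∃ c : ZMod 3, v = c • Cfsg.Agent.H64.E83.qII := by
  rw [← map_inv] at hx
  obtain ⟨c, d, h⟩ := hFixII v hy ht hx
  have hd : d = 0 := by
    by_contra hd
    apply ncube_II (c := c) hd
    rw [← h]; exact hv _
  rw [hd, zero_smul, add_zero] at h
  exact ⟨c, by rw [hqII]; exact h⟩

/-- **`PGL₂(11)`** -/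
theorem pgl_line {h : E} (hx : h * Ph Ax * h⁻¹ = (Ph Ax)⁻¹) (hy : h * Ph Ay = Ph Ay * h)
    (ht : h * Ph At = Ph At * h) : ∃ c : ZMod 3, ac h Cfsg.Agent.H64.E83.qI = c • Cfsg.Agent.H64.E83.qII :=
  Cfsg.Agent.H64.E83.pgl_q Cz Cz_ac Cz_I uII hx hy ht

/-- **`M₁₁`, case II** -/
theorem m11_line {f : E} (hy : f * Ph Ay * f⁻¹ = Ph Ay ^ 2) (ht : f * f = Ph At)
    (hb : f * (Ph Ax * Ph At * (Ph Ax)⁻¹) * f⁻¹ = Ph Ay * (Ph Ax * Ph At * (Ph Ax)⁻¹) * Ph At * Ph Ay ^ 2) :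
    ∃ c : ZMod 3, ac f Cfsg.Agent.H64.E83.qII = c • Cfsg.Agent.H64.E83.qII :=
  Cfsg.Agent.H64.E83.m11_qII Cz Cz_ac Cz_II uII hy ht hb

/-- **`M₁₁`, case I** -/
theorem m11_line_I {f : E} (hy : f * Ph Ay * f⁻¹ = Ph Ay ^ 2) (ht : f * f = Ph At)
    (hb : f * ((Ph Ax)⁻¹ * Ph At * Ph Ax) * f⁻¹ = Ph Ay * ((Ph Ax)⁻¹ * Ph At * Ph Ax) * Ph At * Ph Ay ^ 2) :
    ∃ c : ZMod 3, ac f Cfsg.Agent.H64.E83.qI = c • Cfsg.Agent.H64.E83.qI := by
  obtain ⟨h1, h2, h3⟩ := Cfsg.Agent.H64.E83.m11_fixI hy ht hb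
  exact uI _ h1 h2 h3 (Cz_ac _ _ Cz_I)

end Cfsg.Agent.H738.E83
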