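import Cfsg.Agent.H738.E83.Cube
import Cfsg.Agent.H64.E83.Iota

/-!
# The elements normalising the two `A₅` fix the lines of `q_I`, `q_II` (helper738, S5925 box L)
-/

set_option autoImplicit false
set_option maxRecDepth 100000

namespace Cfsg.Agent.H738.E83

open Matrix Cfsg Cfsg.Lie
open Cfsg.Agent.H64.E83 (L3 mx er vec vec_nil vec_cons vec_append vec_smul eqv vec_eq er_eq Ph i4 i1 act4 act1 mx_mul)
open Cfsg.Agent.H788.E83 (SL5 Ax Ay At it)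

/-- `E₈(3)` -/
abbrev G3 : Type := ↥(chevE8.group (ZMod 3))

/-- `A_I` -/
noncomputable def PI : Subgroup G3 := Subgroup.closure {Ph Ay, Ph At, Ph (Ax⁻¹ * At * Ax)}

/-- `A_II` -/
noncomputable def PII : Subgroup G3 := Subgroup.closure {Ph Ay, Ph At, Ph (Ax * At * Ax⁻¹)}

/-- the fixed space of `A_I` (proved by helper455) -/
def FixI : Prop := ∀ v : L3, mx (Ph Ay) *ᵥ v = v → mx (Ph At) *ᵥ v = v →
  mx (Ph At) *ᵥ (mx (Ph Ax) *ᵥ v) = mx (Ph Ax) *ᵥ v → ∃ c d : ZMod 3, v = c • vb wI + d • vb wI'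

/-- the fixed space of `A_II` (proved by helper455) -/
def FixII : Prop := ∀ v : L3, mx (Ph Ay) *ᵥ v = v → mx (Ph At) *ᵥ v = v →
  mx (Ph At) *ᵥ (mx (Ph Ax⁻¹) *ᵥ v) = mx (Ph Ax⁻¹) *ᵥ v → ∃ c d : ZMod 3, v = c • vb wII + d • vb wII'

theorem mx_one : mx (1 : G3) = 1 := rfl

theorem mx_inv_mul (g : G3) (v : L3) : mx g⁻¹ *ᵥ (mx g *ᵥ v) = v := by
  rw [Matrix.mulVec_mulVec, ← mx_mul, inv_mul_cancel, mx_one, Matrix.one_mulVec]

theorem mx_mul_inv (g : G3) (v : L3) : mx g *ᵥ (mx g⁻¹ *ᵥ v) = v := by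
  rw [Matrix.mulVec_mulVec, ← mx_mul, mul_inv_cancel, mx_one, Matrix.one_mulVec]

theorem mx_inv_of {g : G3} {v w : L3} (h : mx g *ᵥ v = w) : mx g⁻¹ *ᵥ w = v := by rw [← h, mx_inv_mul]

/-- the vector `e₀` of `V` -/
def e0 : Fin 5 → ZMod 3 := ![1, 0, 0, 0, 0]

/-- the vector `f₀ + 2 f₄` of `V*` -/
def f0 : Fin 5 → ZMod 3 := ![1, 0, 0, 0, 2]

theorem qI_eq : vb wI = i4 e0 := by
  unfold i4 e0
  rw [Fin.sum_univ_five]
  show vb wI = (1 : ZMod 3) • _ + (0 : ZMod 3) • _ + (0 : ZMod 3) • _ + (0 : ZMod 3) • _ + (0 : ZMod 3) • _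
  rw [one_smul, zero_smul, zero_smul, zero_smul, zero_smul, add_zero, add_zero, add_zero, add_zero]
  exact vec_eq (by decide +kernel)

theorem qII_eq : vb wII = i1 f0 := by
  unfold i1 f0
  rw [Fin.sum_univ_five]
  show vb wII = (1 : ZMod 3) • vec (Cfsg.Agent.H64.E83.fb 0) + (0 : ZMod 3) • _ + (0 : ZMod 3) • _ + (0 : ZMod 3) • _ +
    (2 : ZMod 3) • vec (Cfsg.Agent.H64.E83.fb 4)
  rw [one_smul, zero_smul, zero_smul, zero_smul, add_zero, add_zero, add_zero]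
  have h2 : (2 : ZMod 3) = ((2 : ℤ) : ZMod 3) := rfl
  rw [h2, ← vec_smul, ← vec_append]
  exact vec_eq (by decide +kernel)

theorem ay0 : (Ay : SL5).1 *ᵥ e0 = e0 := by rw [Cfsg.Agent.H788.E83.Ay_eq]; decide +kernel
theorem at0 : (At : SL5).1 *ᵥ e0 = e0 := by rw [Cfsg.Agent.H788.E83.At_eq]; decide +kernel
theorem ax0 : (At : SL5).1 *ᵥ ((Ax : SL5).1 *ᵥ e0) = (Ax : SL5).1 *ᵥ e0 := by
  rw [Cfsg.Agent.H788.E83.At_eq, Cfsg.Agent.H788.E83.Ax_eq]; decide +kernel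

theorem yI : mx (Ph Ay) *ᵥ vb wI = vb wI := by rw [qI_eq, act4, ay0]
theorem tI : mx (Ph At) *ᵥ vb wI = vb wI := by rw [qI_eq, act4, at0]
theorem xI : mx (Ph At) *ᵥ (mx (Ph Ax) *ᵥ vb wI) = mx (Ph Ax) *ᵥ vb wI := by
  rw [qI_eq, act4, act4, ax0]

theorem it_tr (A : SL5) (f : Fin 5 → ZMod 3) : (it (ZMod 3) A).1 *ᵥ (A.1ᵀ *ᵥ f) = f := by
  have h : (it (ZMod 3) A).1 * A.1ᵀ = 1 := by
    show (A⁻¹ : SL5).1ᵀ * A.1ᵀ = 1
    rw [← Matrix.transpose_mul]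
    have h1 : A.1 * (A⁻¹ : SL5).1 = (A * A⁻¹ : SL5).1 := rfl
    rw [h1, mul_inv_cancel]
    exact Matrix.transpose_one
  rw [Matrix.mulVec_mulVec, h, Matrix.one_mulVec]

theorem act1' (A : SL5) (f : Fin 5 → ZMod 3) : mx (Ph A) *ᵥ i1 (A.1ᵀ *ᵥ f) = i1 f := by rw [act1, it_tr]

theorem ty0 : (Ay : SL5).1ᵀ *ᵥ f0 = f0 := by rw [Cfsg.Agent.H788.E83.Ay_eq]; decide +kernel
theorem tt0 : (At : SL5).1ᵀ *ᵥ f0 = f0 := by rw [Cfsg.Agent.H788.E83.At_eq]; decide +kernel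
theorem tx0 : (At : SL5).1ᵀ *ᵥ ((Ax : SL5).1ᵀ *ᵥ f0) = (Ax : SL5).1ᵀ *ᵥ f0 := by
  rw [Cfsg.Agent.H788.E83.At_eq, Cfsg.Agent.H788.E83.Ax_eq]; decide +kernel

theorem yII : mx (Ph Ay) *ᵥ vb wII = vb wII := by
  have h := act1' Ay f0
  rw [ty0] at h
  rw [qII_eq]; exact h

theorem tII : mx (Ph At) *ᵥ vb wII = vb wII := by
  have h := act1' At f0
  rw [tt0] at h
  rw [qII_eq]; exact h

theorem xinv : mx (Ph Ax⁻¹) *ᵥ vb wII = i1 ((Ax : SL5).1ᵀ *ᵥ f0) := by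
  rw [map_inv, qII_eq]
  exact mx_inv_of (act1' Ax f0)

theorem xII : mx (Ph At) *ᵥ (mx (Ph Ax⁻¹) *ᵥ vb wII) = mx (Ph Ax⁻¹) *ᵥ vb wII := by
  rw [xinv]
  have h := act1' At ((Ax : SL5).1ᵀ *ᵥ f0)
  rw [tx0] at h
  exact h

theorem mx_conj (g s : G3) (v : L3) : mx (g⁻¹ * s * g) *ᵥ v = mx g⁻¹ *ᵥ (mx s *ᵥ (mx g *ᵥ v)) := by
  rw [mx_mul, mx_mul, ← Matrix.mulVec_mulVec, ← Matrix.mulVec_mulVec]

theorem conj_fix {g s : G3} {v : L3} (h : mx s *ᵥ (mx g *ᵥ v) = mx g *ᵥ v) : mx (g⁻¹ * s * g) *ᵥ v = v := by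
  rw [mx_conj, h, mx_inv_mul]

theorem fix_conj {g s : G3} {v : L3} (h : mx (g⁻¹ * s * g) *ᵥ v = v) : mx s *ᵥ (mx g *ᵥ v) = mx g *ᵥ v := by
  rw [mx_conj] at h
  have h1 : mx g *ᵥ (mx g⁻¹ *ᵥ (mx s *ᵥ (mx g *ᵥ v))) = mx g *ᵥ v := by rw [h]
  rw [mx_mul_inv] at h1
  exact h1

theorem closure_fix {T : Set G3} {v : L3} (h : ∀ s ∈ T, mx s *ᵥ v = v) : ∀ s ∈ Subgroup.closure T, mx s *ᵥ v = v := by
  intro s hs
  induction hs using Subgroup.closure_induction with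
  | mem s hs => exact h s hs
  | one => rw [mx_one, Matrix.one_mulVec]
  | mul a b _ _ ha hb => rw [mx_mul, ← Matrix.mulVec_mulVec, hb, ha]
  | inv a _ ha => exact mx_inv_of ha

theorem fix_PI : ∀ s ∈ PI, mx s *ᵥ vb wI = vb wI := by
  refine closure_fix ?_
  rintro s (rfl | rfl | rfl)
  · exact yI
  · exact tI
  · rw [map_mul, map_mul, map_inv]; exact conj_fix xI

theorem fix_PII : ∀ s ∈ PII, mx s *ᵥ vb wII = vb wII := by
  refine closure_fix ?_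
  rintro s (rfl | rfl | rfl)
  · exact yII
  · exact tII
  · have h : Ph (Ax * At * Ax⁻¹) = (Ph Ax⁻¹)⁻¹ * Ph At * Ph Ax⁻¹ := by
      rw [map_mul, map_mul, map_inv, inv_inv]
    rw [h]; exact conj_fix xII

theorem of_fix_PI (hF : FixI) {v : L3} (h : ∀ s ∈ PI, mx s *ᵥ v = v) : ∃ c d : ZMod 3, v = c • vb wI + d • vb wI' := by
  refine hF v (h _ (Subgroup.subset_closure (Or.inl rfl))) (h _ (Subgroup.subset_closure (Or.inr (Or.inl rfl)))) ?_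
  have h1 := h _ (Subgroup.subset_closure (Or.inr (Or.inr rfl)))
  rw [map_mul, map_mul, map_inv] at h1
  exact fix_conj h1

theorem of_fix_PII (hF : FixII) {v : L3} (h : ∀ s ∈ PII, mx s *ᵥ v = v) :
    ∃ c d : ZMod 3, v = c • vb wII + d • vb wII' := by
  refine hF v (h _ (Subgroup.subset_closure (Or.inl rfl))) (h _ (Subgroup.subset_closure (Or.inr (Or.inl rfl)))) ?_
  have h1 := h _ (Subgroup.subset_closure (Or.inr (Or.inr rfl)))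
  have h2 : Ph (Ax * At * Ax⁻¹) = (Ph Ax⁻¹)⁻¹ * Ph At * Ph Ax⁻¹ := by
    rw [map_mul, map_mul, map_inv, inv_inv]
  rw [h2] at h1
  exact fix_conj h1

/-- the general form -/
theorem move {P : Subgroup G3} {q q' : L3}
    (hP : ∀ v : L3, (∀ s ∈ P, mx s *ᵥ v = v) → ∃ c d : ZMod 3, v = c • q + d • q')
    (hn : ∀ c d : ZMod 3, d ≠ 0 → ∃ u, cu (c • q + d • q') u ≠ 0) {v : L3} (hv0 : v ≠ 0) (hv : ∀ u, cu v u = 0) (g : G3)
    (h : ∀ s ∈ P, mx (g⁻¹ * s * g) *ᵥ v = v) : ∃ e : ZMod 3, e ≠ 0 ∧ mx g *ᵥ v = e • q := by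
  obtain ⟨c, d, hcd⟩ := hP (mx g *ᵥ v) fun s hs => fix_conj (h s hs)
  have hd : d = 0 := by
    by_contra hd
    obtain ⟨u, hu⟩ := hn c d hd
    apply hu
    rw [← hcd]
    have h1 : u = mx g *ᵥ (mx g⁻¹ *ᵥ u) := (mx_mul_inv g u).symm
    rw [h1, ← mx_cu, hv, Matrix.mulVec_zero]
  rw [hd, zero_smul, add_zero] at hcd
  refine ⟨c, ?_, hcd⟩
  rintro rfl
  rw [zero_smul] at hcd
  apply hv0
  have h1 := mx_inv_mul g v
  rw [hcd, Matrix.mulVec_zero] at h1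
  exact h1.symm

theorem qI_ne : vb wI ≠ 0 := (sem_vs (w := wI) (by decide +kernel)).ne_zero (by decide +kernel)

theorem qII_ne : vb wII ≠ 0 := (sem_vs (w := wII) (by decide +kernel)).ne_zero (by decide +kernel)

/-- `g` normalises `A_I` -/
theorem norm_I (hF : FixI) {g : G3} (h : ∀ s ∈ PI, g⁻¹ * s * g ∈ PI) : ∃ e : ZMod 3, e ≠ 0 ∧ mx g *ᵥ vb wI = e • vb wI :=
  move (fun _ hv => of_fix_PI hF hv) (fun _ _ hd => ⟨_, ncube_I hd⟩) qI_ne cube_I g fun s hs => fix_PI _ (h s hs)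

/-- `g` normalises `A_II` -/
theorem norm_II (hF : FixII) {g : G3} (h : ∀ s ∈ PII, g⁻¹ * s * g ∈ PII) :
    ∃ e : ZMod 3, e ≠ 0 ∧ mx g *ᵥ vb wII = e • vb wII :=
  move (fun _ hv => of_fix_PII hF hv) (fun _ _ hd => ⟨_, ncube_II hd⟩) qII_ne cube_II g fun s hs => fix_PII _ (h s hs)

/-- `g⁻¹ A_II g ≤ A_I` -/
theorem swap_II (hF : FixII) {g : G3} (h : ∀ s ∈ PII, g⁻¹ * s * g ∈ PI) :
    ∃ e : ZMod 3, e ≠ 0 ∧ mx g *ᵥ vb wI = e • vb wII :=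
  move (fun _ hv => of_fix_PII hF hv) (fun _ _ hd => ⟨_, ncube_II hd⟩) qI_ne cube_I g fun s hs => fix_PI _ (h s hs)

/-- `g⁻¹ A_I g ≤ A_II` -/
theorem swap_I (hF : FixI) {g : G3} (h : ∀ s ∈ PI, g⁻¹ * s * g ∈ PII) :
    ∃ e : ZMod 3, e ≠ 0 ∧ mx g *ᵥ vb wII = e • vb wI :=
  move (fun _ hv => of_fix_PI hF hv) (fun _ _ hd => ⟨_, ncube_I hd⟩) qII_ne cube_II g fun s hs => fix_PII _ (h s hs)

/-- it is enough to conjugate the generators into the group -/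
theorem conj_mem {G : Type*} [Group G] {P Q : Subgroup G} {T : Set G} (hP : P = Subgroup.closure T) {g : G}
    (h : ∀ s ∈ T, g⁻¹ * s * g ∈ Q) : ∀ s ∈ P, g⁻¹ * s * g ∈ Q := by
  intro s hs
  rw [hP] at hs
  have h1 : Subgroup.closure T ≤ Q.comap (MulAut.conj g⁻¹).toMonoidHom := by
    rw [Subgroup.closure_le]
    intro s hs
    show g⁻¹ * s * g⁻¹⁻¹ ∈ Q
    rw [inv_inv]; exact h s hs
  have h2 := h1 hs
  have h3 : g⁻¹ * s * g⁻¹⁻¹ ∈ Q := h2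
  rwa [inv_inv] at h3

/-- finite form: `g s g⁻¹ ∈ P` for the generators gives `g⁻¹ P g ≤ P` -/
theorem conj_inv_mem {G : Type*} [Group G] {P : Subgroup G} {T : Set G} (hP : P = Subgroup.closure T) [Finite ↥P]
    {g : G} (h : ∀ s ∈ T, g * s * g⁻¹ ∈ P) : ∀ s ∈ P, g⁻¹ * s * g ∈ P := by
  have h1 : ∀ s ∈ P, g * s * g⁻¹ ∈ P := by
    intro s hs
    have h2 := conj_mem (P := P) (Q := P) (T := T) hP (g := g⁻¹) (by
      intro s hs; rw [inv_inv]; exact h s hs) s hs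
    rwa [inv_inv] at h2
  let f : ↥P → ↥P := fun s => ⟨g * s * g⁻¹, h1 s s.2⟩
  have hf : Function.Injective f := by
    intro a b hab
    have h3 : g * (a : G) * g⁻¹ = g * (b : G) * g⁻¹ := congrArg Subtype.val hab
    exact Subtype.ext (mul_left_cancel (mul_right_cancel h3))
  have hs : Function.Surjective f := Finite.surjective_of_injective hf
  intro s hs'
  obtain ⟨a, ha⟩ := hs ⟨s, hs'⟩
  have h4 : g * (a : G) * g⁻¹ = s := congrArg Subtype.val ha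
  have h5 : g⁻¹ * s * g = (a : G) := by rw [← h4]; group
  rw [h5]; exact a.2

end Cfsg.Agent.H738.E83
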